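import Groth.Agent.An.H579.RetCov

/-!
# Coverings of `ℂ ∖ S` with prescribed transition permutations

`Sᶜ = Up ∪ Um`; a finite covering that is trivial over `Up` and over `Um`, the two trivialisations
being related by a given locally constant permutation over `Up ∩ Um`.
-/

set_option autoImplicit false

open Set Topology Metric

namespace Groth.Agent.Pi1.H412.Cov

open Groth.Agent.An.H579.RetCov

variable {S Up Um : Set ℂ} {F : Type} (τ : ℂ → Equiv.Perm F)

open Classical in
/-- the transition maps -/
noncomputable def chg (i j : Bool) (z : ℂ) : F → F :=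
  match i, j with
  | true, true => id
  | false, false => id
  | false, true => τ z
  | true, false => (τ z).symm

lemma chg_comp (i j k : Bool) (z : ℂ) (f : F) : chg τ j k z (chg τ i j z f) = chg τ i k z f := by
  cases i <;> cases j <;> cases k <;> simp [chg]

open Classical in
/-- The fibre bundle core. -/
noncomputable def core [TopologicalSpace F] [DiscreteTopology F] (hUp : IsOpen Up)
    (hUm : IsOpen Um) (hS : Up ∪ Um = Sᶜ) (hτ : ∀ z ∈ Up ∩ Um, ∀ᶠ w in 𝓝 z, τ w = τ z) :
    FiberBundleCore Bool {z : ℂ // z ∈ Sᶜ} F where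
  baseSet i := Subtype.val ⁻¹' (if i then Up else Um)
  isOpen_baseSet i := by
    cases i
    · exact hUm.preimage continuous_subtype_val
    · exact hUp.preimage continuous_subtype_val
  indexAt z := if z.1 ∈ Up then true else false
  mem_baseSet_at z := by
    by_cases h : z.1 ∈ Up
    · simp [h]
    · have : z.1 ∈ Up ∪ Um := by rw [hS]; exact z.2
      simpa [h] using this
  coordChange i j z := chg τ i j z.1
  coordChange_self i z _ v := by cases i <;> rfl
  continuousOn_coordChange i j := by
    have key : ∀ z : {z : ℂ // z ∈ Sᶜ}, z.1 ∈ Up ∩ Um → ∀ᶠ w in 𝓝 z, τ w.1 = τ z.1 := by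
      intro z hz
      exact (continuous_subtype_val.tendsto z).eventually (hτ _ hz)
    rintro ⟨z, f⟩ ⟨hz, -⟩
    refine ContinuousAt.continuousWithinAt ?_
    have hev : ∀ᶠ q : {z : ℂ // z ∈ Sᶜ} × F in 𝓝 (z, f), q.2 = f := by
      rw [nhds_prod_eq, nhds_discrete F, Filter.prod_pure]
      exact Filter.eventually_map.mpr (Filter.Eventually.of_forall fun _ => rfl)
    have hcst : ∀ᶠ q : {z : ℂ // z ∈ Sᶜ} × F in 𝓝 (z, f),
        chg τ i j q.1.1 q.2 = chg τ i j z.1 f := by
      cases i <;> cases j
      · filter_upwards [hev] with q hq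
        rw [hq]; rfl
      · have h2 := (continuous_fst.tendsto (z, f)).eventually (key z ⟨hz.2, hz.1⟩)
        filter_upwards [hev, h2] with q hq h3
        have h3' : τ q.1.1 = τ z.1 := h3
        simp only [chg, hq, h3']
      · have h2 := (continuous_fst.tendsto (z, f)).eventually (key z ⟨hz.1, hz.2⟩)
        filter_upwards [hev, h2] with q hq h3
        have h3' : τ q.1.1 = τ z.1 := h3
        simp only [chg, hq, h3']
      · filter_upwards [hev] with q hq
        rw [hq]; rfl
    exact continuousAt_const.congr (hcst.mono fun q hq => hq.symm)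
  coordChange_comp i j k z _ v := chg_comp τ i j k z.1 v

theorem exists_cov [Finite F] (hUp : IsOpen Up) (hUm : IsOpen Um)
    (hS : Up ∪ Um = Sᶜ) (hne : (Sᶜ).Nonempty)
    (hτ : ∀ z ∈ Up ∩ Um, ∀ᶠ w in 𝓝 z, τ w = τ z) :
    ∃ (Y : Type) (_ : TopologicalSpace Y) (p : Y → ℂ), FinCov S p ∧
      ∃ sp sm : F → ℂ → Y, (∀ f, IsSec p Up (sp f)) ∧ (∀ f, IsSec p Um (sm f)) ∧
        (∀ z ∈ Up, ∀ y, p y = z → ∃! f, sp f z = y) ∧
        (∀ z ∈ Um, ∀ y, p y = z → ∃! f, sm f z = y) ∧
        ∀ z ∈ Up ∩ Um, ∀ f, sm f z = sp (τ z f) z := by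
  classical
  let : TopologicalSpace F := ⊥
  have : DiscreteTopology F := ⟨rfl⟩
  have hSo : IsOpen Sᶜ := hS ▸ hUp.union hUm
  let Z := core τ hUp hUm hS hτ
  let p : Z.TotalSpace → ℂ := fun y => (Z.proj y).1
  obtain ⟨z₀, hz₀⟩ := hne
  let sec (i : Bool) (f : F) (z : ℂ) : Z.TotalSpace :=
    if h : z ∈ Sᶜ then (Z.localTriv i).toOpenPartialHomeomorph.symm (⟨z, h⟩, f)
    else (Z.localTriv i).toOpenPartialHomeomorph.symm (⟨z₀, hz₀⟩, f)
  have hsec : ∀ (i : Bool) (f : F) (z : ℂ) (h : z ∈ Sᶜ), sec i f z =
      (Z.localTriv i).toOpenPartialHomeomorph.symm (⟨z, h⟩, f) := fun i f z h => dif_pos h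
  have hbase : ∀ (i : Bool) (z : {z : ℂ // z ∈ Sᶜ}), z ∈ (Z.localTriv i).baseSet ↔
      z.1 ∈ (if i then Up else Um) := by
    intro i z
    rw [← Z.baseSet_at]
    rfl
  have hsub : ∀ i : Bool, (if i then Up else Um) ⊆ Sᶜ := by
    intro i
    rw [← hS]
    cases i
    · exact subset_union_right
    · exact subset_union_left
  have hIs : ∀ (i : Bool) (f : F), IsSec p (if i then Up else Um) (sec i f) := by
    intro i f
    constructor
    · intro z hz
      have hzS := hsub i hz
      have h1 : ContinuousOn (fun w : {z : ℂ // z ∈ Sᶜ} =>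
          (Z.localTriv i).toOpenPartialHomeomorph.symm (w, f)) (Z.localTriv i).baseSet := by
        refine (Z.localTriv i).continuousOn_invFun.comp (by fun_prop) ?_
        intro w hw
        rw [(Z.localTriv i).target_eq]
        exact ⟨hw, trivial⟩
      have h2 : ContinuousAt (fun w : {z : ℂ // z ∈ Sᶜ} =>
          (Z.localTriv i).toOpenPartialHomeomorph.symm (w, f)) ⟨z, hzS⟩ := by
        refine h1.continuousAt ((Z.localTriv i).open_baseSet.mem_nhds ?_)
        rw [hbase]
        exact hz
      refine ContinuousAt.continuousWithinAt ?_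
      have h3 : Filter.Tendsto (sec i f) (𝓝 z) (𝓝 (sec i f z)) := by
        rw [← map_nhds_subtype_coe_eq_nhds hzS (hSo.mem_nhds hzS), Filter.tendsto_map'_iff,
          hsec i f z hzS]
        refine Filter.Tendsto.congr (fun w => ?_) h2
        exact (hsec i f w.1 w.2).symm
      exact h3
    · intro z hz
      have hzS := hsub i hz
      rw [hsec i f z hzS]
      have : (⟨z, hzS⟩, f) ∈ (Z.localTriv i).target := by
        rw [(Z.localTriv i).target_eq]
        exact ⟨(hbase _ _).mpr hz, trivial⟩
      exact congrArg Subtype.val ((Z.localTriv i).proj_symm_apply this)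
  have huniq : ∀ (i : Bool) (z : ℂ), z ∈ (if i then Up else Um) → ∀ y, p y = z →
      ∃! f, sec i f z = y := by
    intro i z hz y hy
    have hzS := hsub i hz
    have hys : y ∈ (Z.localTriv i).source := by
      rw [(Z.localTriv i).mem_source, hbase]
      have h' : (Z.proj y).1 = z := hy
      rw [h']
      exact hz
    have hpy : Z.proj y = ⟨z, hzS⟩ := Subtype.ext hy
    refine ⟨((Z.localTriv i) y).2, ?_, ?_⟩
    · simp only
      rw [hsec i _ z hzS]
      have : ((⟨z, hzS⟩ : {z : ℂ // z ∈ Sᶜ}), ((Z.localTriv i) y).2) = (Z.localTriv i) y := by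
        refine Prod.ext ?_ rfl
        rw [(Z.localTriv i).coe_fst hys, hpy]
      rw [this]
      exact (Z.localTriv i).toOpenPartialHomeomorph.left_inv hys
    · intro f hf
      rw [hsec i f z hzS] at hf
      have ht : ((⟨z, hzS⟩ : {z : ℂ // z ∈ Sᶜ}), f) ∈ (Z.localTriv i).target := by
        rw [(Z.localTriv i).target_eq]
        exact ⟨(hbase _ _).mpr hz, trivial⟩
      rw [← hf]
      have := (Z.localTriv i).toOpenPartialHomeomorph.right_inv ht
      exact (congrArg Prod.snd this).symm
  refine ⟨Z.TotalSpace, inferInstance, p, ⟨?_, ?_, ?_, ?_⟩, sec true, sec false, hIs true,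
    hIs false, huniq true, huniq false, ?_⟩
  · rw [← isOpen_compl_iff]; exact hSo
  · have hc : IsCoveringMap (Z.proj) := FiberBundle.isCoveringMap (F := F) (E := Z.Fiber)
    exact IsCoveringMapOn.of_isCoveringMap_subtype hSo (fun y => (Z.proj y).2) hc
  · intro y
    exact (Z.proj y).2
  · intro z
    by_cases hz : z ∈ Sᶜ
    · have : z ∈ Up ∪ Um := hS ▸ hz
      have hfin : ∀ i : Bool, z ∈ (if i then Up else Um) → (p ⁻¹' {z}).Finite := by
        intro i hi
        have : p ⁻¹' {z} ⊆ range fun f => sec i f z := by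
          intro y hy
          obtain ⟨f, hf, -⟩ := huniq i z hi y hy
          exact ⟨f, hf⟩
        exact (finite_range _).subset this
      rcases this with h | h
      · exact hfin true h
      · exact hfin false h
    · have : p ⁻¹' {z} = ∅ := by
        ext y
        simp only [mem_preimage, mem_singleton_iff, mem_empty_iff_false, iff_false]
        intro hy
        exact hz (hy ▸ (Z.proj y).2)
      rw [this]
      exact finite_empty
  · rintro z ⟨h1, h2⟩ f
    have hzS : z ∈ Sᶜ := hS ▸ Or.inl h1
    rw [hsec false f z hzS, hsec true _ z hzS]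
    have hsymm : ∀ (i : Bool) (w : {z : ℂ // z ∈ Sᶜ}) (f : F),
        (Z.localTriv i).toOpenPartialHomeomorph.symm (w, f) =
          (⟨w, Z.coordChange i (Z.indexAt w) w f⟩ : Z.TotalSpace) := fun _ _ _ => rfl
    rw [hsymm, hsymm]
    congr 1
    exact (chg_comp τ false true _ z f).symm

end Groth.Agent.Pi1.H412.Cov
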