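import Groth.Agent.Pi1.H412.CovStrip
import Groth.Agent.Pi1.H147.TwoChart

/-!
# The transition permutations of the coverings of `CovStrip`
-/

set_option autoImplicit false

open Set Topology Metric

namespace Groth.Agent.Pi1.H412.CovMono

open Groth.Agent.An.H579.RetCov Groth.Agent.Pi1.H147.Slit Groth.Agent.Pi1.H147.Sec
  Groth.Agent.Pi1.H147.TwoChart Groth.Agent.Pi1.H412.CovStrip

section tr

variable {Y : Type*} [TopologicalSpace Y] {p : Y → ℂ} {B A : Set ℂ}

/-- Transport along a section. -/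
lemma tr_of_isSec (hp : IsCoveringMapOn p B) (hA : Good A) (hAB : A ⊆ B) {σ : ℂ → Y}
    (hσ : ContinuousOn σ A) (hσp : ∀ z ∈ A, p (σ z) = z) {x y : ℂ} (hx : x ∈ A) (hy : y ∈ A)
    (e : p ⁻¹' {x}) (he : e.1 = σ x) : (tr hp hA hAB hx hy e).1 = σ y := by
  let σ' : C(A, Y) := ⟨A.domRestrict σ, hσ.domRestrict⟩
  have h : σ' = sec hp hA hAB e.1 (mem_of hx e) := by
    apply sec_eq
    · exact fun z => hσp z.1 z.2
    · have hpe : p e.1 = x := e.2
      change σ (p e.1) = e.1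
      rw [hpe, he]
  rw [tr_val, ← h]
  rfl

end tr

variable {n : ℕ} (b : Fin n → ℂ) {F : Type}

lemma half_subset_of (S : Set ℂ) (hS : Sᶜ = Pl b) (s : ℝ) : Half b s ⊆ Sᶜ := by
  rw [hS]
  exact half_subset_pl b s

/-- For every family of permutations `G j` with `G 0 = 1` there is a finite covering of
`ℂ ∖ {b_0, …, b_{n-1}}` with fibre `F` over `z₀` and transition permutations `G j`. -/
theorem exists_cov_g (hb : StrictMono fun i => (b i).re) [Finite F]
    (G : Fin (n + 1) → Equiv.Perm F) (hG : G 0 = 1) (S : Set ℂ) (hS : Sᶜ = Pl b) (z₀ : ℂ)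
    (hz₀ : z₀ ∈ Strip b 0) :
    ∃ (Y : Type) (_ : TopologicalSpace Y) (p : Y → ℂ) (h : FinCov S p) (φ : F ≃ p ⁻¹' {z₀}),
      ∀ (j : Fin (n + 1)) (w : ℂ) (hw : w ∈ Strip b j) (f : F),
        g h.cov (good_half b 1 (by norm_num)) (good_half b (-1) (by norm_num))
          (half_subset_of b S hS 1) (half_subset_of b S hS (-1))
          (strip_subset_half b 1 0 hz₀) (strip_subset_half b (-1) 0 hz₀)
          (strip_subset_half b 1 j hw) (strip_subset_half b (-1) j hw) (φ f) = φ (G j f) := by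
  obtain ⟨Y, top, p, h, sp, sm, hsp, hsm, hup, hum, htr⟩ :=
    exists_cov_strip b hb (fun j => (G j)⁻¹) S hS
  have hz1 := strip_subset_half b 1 0 hz₀
  have hz2 := strip_subset_half b (-1) 0 hz₀
  let φ₀ : F → p ⁻¹' {z₀} := fun f => ⟨sp f z₀, (hsp f).sec z₀ hz1⟩
  have hφ : Function.Bijective φ₀ := by
    constructor
    · intro f f' hff
      obtain ⟨f'', -, hu⟩ := hup z₀ hz1 (sp f z₀) ((hsp f).sec z₀ hz1)
      rw [hu f rfl, hu f' (congrArg Subtype.val hff).symm]
    · rintro ⟨y, hy⟩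
      obtain ⟨f, hf, -⟩ := hup z₀ hz1 y hy
      exact ⟨f, Subtype.ext hf⟩
  refine ⟨Y, top, p, h, Equiv.ofBijective φ₀ hφ, fun j w hw f => ?_⟩
  have hw1 := strip_subset_half b 1 j hw
  have hw2 := strip_subset_half b (-1) j hw
  apply Subtype.ext
  rw [g_apply]
  have e1 : (tr h.cov (good_half b 1 (by norm_num)) (half_subset_of b S hS 1) hz1 hw1
      (Equiv.ofBijective φ₀ hφ f)).1 = sp f w :=
    tr_of_isSec h.cov _ _ (hsp f).cont (hsp f).sec hz1 hw1 _ rfl
  have e2 : sp f w = sm (G j f) w := by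
    rw [htr j w hw (G j f)]
    simp
  rw [tr_of_isSec h.cov _ _ (hsm (G j f)).cont (hsm (G j f)).sec hw2 hz2 _ (e1.trans e2),
    htr 0 z₀ hz₀, hG]
  simp only [inv_one, Equiv.Perm.coe_one, id_eq]
  rfl

end Groth.Agent.Pi1.H412.CovMono
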