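import Groth.Agent.Pi1.H412.Cov
import Groth.Agent.Pi1.H147.Slit

/-!
# Coverings of `ℂ ∖ {b_0, …, b_{n-1}}` with prescribed transition permutations over the strips
-/

set_option autoImplicit false

open Set Topology Metric

namespace Groth.Agent.Pi1.H412.CovStrip

open Groth.Agent.An.H579.RetCov Groth.Agent.Pi1.H147.Slit

variable {n : ℕ} (b : Fin n → ℂ) {F : Type}

lemma isOpen_strip (j : Fin (n + 1)) : IsOpen (Strip b j) := by
  have h : Strip b j = (⋂ (i : Fin n) (_ : i.castSucc < j), {z : ℂ | (b i).re < z.re}) ∩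
      (⋂ (i : Fin n) (_ : j ≤ i.castSucc), {z : ℂ | z.re < (b i).re}) := by
    ext z
    simp [Strip]
  rw [h]
  refine IsOpen.inter ?_ ?_
  · exact isOpen_iInter_of_finite fun i => isOpen_iInter_of_finite fun _ =>
      isOpen_lt continuous_const Complex.continuous_re
  · exact isOpen_iInter_of_finite fun i => isOpen_iInter_of_finite fun _ =>
      isOpen_lt Complex.continuous_re continuous_const

lemma strip_unique {z : ℂ} {j j' : Fin (n + 1)} (h : z ∈ Strip b j) (h' : z ∈ Strip b j') :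
    j = j' := by
  by_contra hne
  rcases lt_or_gt_of_ne hne with hlt | hlt
  · have hj : (j : ℕ) < n := lt_of_lt_of_le hlt (Nat.lt_succ_iff.mp j'.2)
    have h1 := h.2 ⟨j, hj⟩ le_rfl
    have h2 := h'.1 ⟨j, hj⟩ hlt
    exact lt_asymm h1 h2
  · have hj : (j' : ℕ) < n := lt_of_lt_of_le hlt (Nat.lt_succ_iff.mp j.2)
    have h1 := h'.2 ⟨j', hj⟩ le_rfl
    have h2 := h.1 ⟨j', hj⟩ hlt
    exact lt_asymm h1 h2

/-- A finite covering with prescribed transition permutations over the strips. -/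
theorem exists_cov_strip (hb : StrictMono fun i => (b i).re) [Finite F]
    (t : Fin (n + 1) → Equiv.Perm F) (S : Set ℂ) (hS : Sᶜ = Pl b) :
    ∃ (Y : Type) (_ : TopologicalSpace Y) (p : Y → ℂ), FinCov S p ∧
      ∃ sp sm : F → ℂ → Y, (∀ f, IsSec p (Half b 1) (sp f)) ∧
        (∀ f, IsSec p (Half b (-1)) (sm f)) ∧
        (∀ z ∈ Half b 1, ∀ y, p y = z → ∃! f, sp f z = y) ∧
        (∀ z ∈ Half b (-1), ∀ y, p y = z → ∃! f, sm f z = y) ∧
        ∀ j, ∀ z ∈ Strip b j, ∀ f, sm f z = sp (t j f) z := by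
  classical
  let τ : ℂ → Equiv.Perm F := fun z => if h : ∃ j, z ∈ Strip b j then t h.choose else 1
  have hτ : ∀ (j) (z : ℂ), z ∈ Strip b j → τ z = t j := by
    intro j z hz
    have h : ∃ j, z ∈ Strip b j := ⟨j, hz⟩
    have : τ z = t h.choose := dif_pos h
    rw [this, strip_unique b h.choose_spec hz]
  have hS' : Half b 1 ∪ Half b (-1) = Sᶜ := by rw [half_union_half b hb, hS]
  obtain ⟨Y, top, p, h1, sp, sm, h2, h3, h4, h5, h6⟩ := Cov.exists_cov (S := S) τ
    (isOpen_half b 1) (isOpen_half b (-1)) hS' (by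
      obtain ⟨z, hz⟩ := strip_nonempty b hb 0
      exact ⟨z, by rw [← hS']; exact Or.inl (strip_subset_half b 1 0 hz)⟩) (by
      intro z hz
      obtain ⟨j, hj⟩ := mem_iUnion.1 (half_inter_half b hb hz)
      filter_upwards [(isOpen_strip b j).mem_nhds hj] with w hw
      rw [hτ j z hj, hτ j w hw])
  refine ⟨Y, top, p, h1, sp, sm, h2, h3, h4, h5, fun j z hz f => ?_⟩
  rw [h6 z ⟨strip_subset_half b 1 j hz, strip_subset_half b (-1) j hz⟩, hτ j z hz]

end Groth.Agent.Pi1.H412.CovStrip
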