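import Groth.Prelude.Def_PiSp

/-!
# The presentation property of S3712

`Pres k U ξ g n`: the fundamental group of `U` at `ξ` has elements `x_i, y_i (i < g)`,
`σ_j (j < n)` with `∏ [x_i, y_i] ∏ σ_j = 1` such that homomorphisms with open kernel to a finite group
`G` of order invertible in `k` correspond to tuples in `G` with the same relation.
-/

set_option autoImplicit false

universe u v

open CategoryTheory AlgebraicGeometry

namespace Groth.Agent.Pi1.H412.PresDef

/-- The relation word `[x_1, y_1] ⋯ [x_g, y_g] σ_1 ⋯ σ_n`. -/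
def word {P : Type v} [Group P] {g n : ℕ} (x y : Fin g → P) (σ : Fin n → P) : P :=
  (List.ofFn fun i : Fin g => x i * y i * (x i)⁻¹ * (y i)⁻¹).prod * (List.ofFn σ).prod

lemma map_word {P Q : Type*} [Group P] [Group Q] (f : P →* Q) {g n : ℕ} (x y : Fin g → P)
    (σ : Fin n → P) : f (word x y σ) = word (f ∘ x) (f ∘ y) (f ∘ σ) := by
  simp only [word, map_mul, map_list_prod, List.map_ofFn]
  congr 3
  funext i
  simp

/-- The presentation property (the conclusion of S3712). -/
def Pres (k : Type u) [Field k] (U : Scheme.{u}) {Ω : Type u} [Field Ω]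
    (ξ : Spec (CommRingCat.of Ω) ⟶ U) (g n : ℕ) : Prop :=
  ∃ (xs ys : Fin g → FEt.piOne U ξ) (σ : Fin n → FEt.piOne U ξ),
    word xs ys σ = 1 ∧
    ∀ (G : Type) [Group G] [Finite G], IsUnit ((Nat.card G : ℕ) : k) →
      ∀ (a b : Fin g → G) (c : Fin n → G), word a b c = 1 →
        ∃! θ : FEt.piOne U ξ →* G, IsOpen (θ.ker : Set (FEt.piOne U ξ)) ∧
          (∀ i, θ (xs i) = a i) ∧ (∀ i, θ (ys i) = b i) ∧ (∀ j, θ (σ j) = c j)

end Groth.Agent.Pi1.H412.PresDef
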