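import Groth.Agent.An.H579.RE1
import Groth.Agent.Pi1.H387.PtsCov
import Mathlib.RingTheory.RingHom.Etale
import Mathlib.RingTheory.Finiteness.Finsupp

/-!
# Riemann's existence theorem for `ℂ ∖ S`, in terms of `Pts`, in any universe
-/

set_option autoImplicit false

universe u

open Set Topology Polynomial

namespace Groth.Agent.Pi1.H412.RetPts

open Groth.Agent.An.H579.RetCov Groth.Agent.Pi1.H387.Pts

variable {Y : Type} [TopologicalSpace Y] {S : Finset ℂ} {p : Y → ℂ}

/-- Every finite covering of `ℂ ∖ S` is the space of points of a finite etale algebra. -/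
theorem exists_alg (h : FinCov (S : Set ℂ) p) (A : Type u) [CommRing A] [Algebra ℂ[X] A]
    [Algebra ℂ A] [IsScalarTower ℂ ℂ[X] A] [IsLocalization.Away (PS S) A] :
    ∃ (B : Type u) (_ : CommRing B) (_ : Algebra A B) (_ : Algebra ℂ[X] B) (_ : Algebra ℂ B)
      (_ : IsScalarTower ℂ[X] A B) (_ : IsScalarTower ℂ A B) (_ : IsScalarTower ℂ ℂ[X] B)
      (ψ : Y ≃ₜ Pts B), Module.Finite A B ∧ Algebra.Etale A B ∧
        ∀ y, coord B (ψ y) = p y := by
  let A0 := Localization.Away (PS S)
  obtain ⟨B0, _, _, e, hfin, het, he1, he2, he3⟩ := RE1 h A0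
  let eA : A ≃ₐ[ℂ[X]] A0 := IsLocalization.algEquiv (Submonoid.powers (PS S)) A A0
  let iA : A →+* A0 := eA
  let iU : B0 →+* ULift.{u} B0 := (ULift.ringEquiv (R := B0)).symm
  let f : A →+* ULift.{u} B0 := iU.comp ((algebraMap A0 B0).comp iA)
  let _ : Algebra A (ULift.{u} B0) := f.toAlgebra
  let _ : Algebra ℂ (ULift.{u} B0) := (f.comp (algebraMap ℂ A)).toAlgebra
  let _ : Algebra ℂ[X] (ULift.{u} B0) := (f.comp (algebraMap ℂ[X] A)).toAlgebra
  have hst : IsScalarTower ℂ A (ULift.{u} B0) := IsScalarTower.of_algebraMap_eq fun _ => rfl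
  have hst1 : IsScalarTower ℂ[X] A (ULift.{u} B0) := IsScalarTower.of_algebraMap_eq fun _ => rfl
  have hst2 : IsScalarTower ℂ ℂ[X] (ULift.{u} B0) := IsScalarTower.of_algebraMap_eq fun c => by
    change f (algebraMap ℂ A c) = f (algebraMap ℂ[X] A (algebraMap ℂ ℂ[X] c))
    rw [← IsScalarTower.algebraMap_apply ℂ ℂ[X] A]
  have hcst : ∀ c : ℂ, (algebraMap ℂ (ULift.{u} B0) c) =
      iU (algebraMap A0 B0 (algebraMap ℂ[X] A0 (C c))) := by
    intro c
    change iU (algebraMap A0 B0 (iA (algebraMap ℂ A c))) = _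
    rw [IsScalarTower.algebraMap_apply ℂ ℂ[X] A]
    congr 2
    exact eA.commutes (C c)
  have hval : ∀ (y : Y) (a : A), e y (algebraMap A0 B0 (iA a)) =
      ev S A0 (p y) (h.notMem y) (iA a) := fun y a =>
    congrArg (fun f => f (iA a)) (he1 y)
  let ψ0 : Y → Pts (ULift.{u} B0) := fun y =>
    ({ (e y).comp ((ULift.ringEquiv (R := B0) : ULift.{u} B0 ≃+* B0) : ULift.{u} B0 →+* B0) with
        commutes' := fun c => by
          rw [hcst]
          change e y (algebraMap A0 B0 (algebraMap ℂ[X] A0 (C c))) = _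
          have h1 := congrArg (fun f => f (algebraMap ℂ[X] A0 (C c))) (he1 y)
          simp only [RingHom.comp_apply, ev_algebraMap, eval_C] at h1
          exact h1 } : ULift.{u} B0 →ₐ[ℂ] ℂ)
  have hψ0 : ∀ y b, ψ0 y b = e y b.down := fun _ _ => rfl
  have hbij : Function.Bijective ψ0 := by
    constructor
    · intro y y' hyy
      have h1 : e y = e y' := by
        refine RingHom.ext fun b => ?_
        have := congrArg (fun (φ : Pts (ULift.{u} B0)) => φ ⟨b⟩) hyy
        exact this
      obtain ⟨y'', -, hu⟩ := he2 (e y) (fun c => by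
        have h1 := congrArg (fun f => f (algebraMap ℂ[X] A0 (C c))) (he1 y)
        simp only [RingHom.comp_apply, ev_algebraMap, eval_C] at h1
        exact h1)
      rw [hu y rfl, hu y' h1.symm]
    · intro φ
      let φ' : B0 →+* ℂ := ((φ : ULift.{u} B0 →ₐ[ℂ] ℂ) : ULift.{u} B0 →+* ℂ).comp iU
      obtain ⟨y, hy, -⟩ := he2 φ' (fun c => by
        have h1 := (φ : ULift.{u} B0 →ₐ[ℂ] ℂ).commutes c
        rw [hcst] at h1
        exact h1)
      refine ⟨y, ext' fun b => ?_⟩
      rw [hψ0, hy]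
      rfl
  have hind : IsInducing ψ0 := by
    have h1 : IsInducing (fun (φ : Pts (ULift.{u} B0)) (b : ULift.{u} B0) => φ b) := isInducing
    refine IsInducing.of_comp_iff h1 |>.1 ?_
    -- compare with the evaluation at elements of `B0`
    let r : (B0 → ℂ) ≃ₜ (ULift.{u} B0 → ℂ) :=
      Homeomorph.piCongrLeft (Y := fun _ : ULift.{u} B0 => ℂ) (Equiv.ulift.symm : B0 ≃ ULift.{u} B0)
    have h2 : ((fun (φ : Pts (ULift.{u} B0)) (b : ULift.{u} B0) => φ b) ∘ ψ0) =
        r ∘ (fun (y : Y) (b : B0) => e y b) := by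
      funext y b
      rfl
    rw [h2]
    exact r.isInducing.comp he3
  let ψ : Y ≃ₜ Pts (ULift.{u} B0) := (Equiv.ofBijective ψ0 hbij).toHomeomorphOfIsInducing hind
  refine ⟨ULift.{u} B0, inferInstance, inferInstance, inferInstance, inferInstance, hst1, hst, hst2,
    ψ, ?_, ?_, ?_⟩
  · rw [← RingHom.finite_algebraMap]
    change f.Finite
    have h1 : iA.Finite := RingHom.Finite.of_surjective _ eA.surjective
    have h2 : iU.Finite := RingHom.Finite.of_surjective _ (ULift.ringEquiv (R := B0)).symm.surjective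
    exact h2.comp ((RingHom.finite_algebraMap.2 hfin).comp h1)
  · let _ : Algebra A A0 := iA.toAlgebra
    let _ : Algebra A B0 := ((algebraMap A0 B0).comp iA).toAlgebra
    have : IsScalarTower A A0 B0 := IsScalarTower.of_algebraMap_eq fun _ => rfl
    have h1 : Algebra.Etale A A0 := RingHom.etale_algebraMap.1 (RingHom.Etale.of_bijective eA.bijective)
    have h2 : Algebra.Etale A B0 := Algebra.Etale.comp A A0 B0
    let eU : B0 ≃ₐ[A] ULift.{u} B0 :=
      AlgEquiv.ofRingEquiv (f := (ULift.ringEquiv (R := B0)).symm) (fun _ => rfl)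
    exact Algebra.Etale.of_equiv eU
  · intro y
    change e y (algebraMap A0 B0 (iA (algebraMap ℂ[X] A X))) = p y
    rw [hval]
    have : iA (algebraMap ℂ[X] A X) = algebraMap ℂ[X] A0 X := eA.commutes X
    rw [this, ev_algebraMap, eval_X]

end Groth.Agent.Pi1.H412.RetPts
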