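import Groth.Agent.Pi1.H412.CovMono
import Groth.Agent.Pi1.H412.RetPts
import Groth.Agent.Pi1.H147.Mono

/-!
# Riemann existence and monodromy

For every family `x : Fin n → Perm F` there is a finite etale algebra over the localization of `ℂ[X]`
at `∏ (X - b i)` whose points over the base point are identified with `F` with monodromy `x`.
-/

set_option autoImplicit false

universe u

open Set Topology Metric Polynomial

namespace Groth.Agent.Pi1.H412.RetMono

open Groth.Agent.An.H579.RetCov Groth.Agent.Pi1.H147.Slit Groth.Agent.Pi1.H147.Sec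
  Groth.Agent.Pi1.H147.TwoChart Groth.Agent.Pi1.H412.CovStrip Groth.Agent.Pi1.H412.CovMono
  Groth.Agent.Pi1.H147.Mono Groth.Agent.Pi1.H387.Pts

variable {n : ℕ} (b : Fin n → ℂ) {F : Type}

/-- Variant of `CovMono.exists_cov_g`. -/
theorem exists_cov_g' (hb : StrictMono fun i => (b i).re) [Finite F]
    (G : Fin (n + 1) → Equiv.Perm F) (hG : G 0 = 1) (S : Set ℂ) (hS : Sᶜ = Pl b) (z₀ : ℂ)
    (hz₀ : z₀ ∈ Strip b 0) :
    ∃ (Y : Type) (_ : TopologicalSpace Y) (p : Y → ℂ) (_ : FinCov S p) (φ : F ≃ p ⁻¹' {z₀}),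
      ∀ (B : Set ℂ) (hp : IsCoveringMapOn p B) (h1 : Half b 1 ⊆ B) (h2 : Half b (-1) ⊆ B)
        (j : Fin (n + 1)) (w : ℂ) (hw : w ∈ Strip b j) (f : F),
        g hp (good_half b 1 (by norm_num)) (good_half b (-1) (by norm_num)) h1 h2
          (strip_subset_half b 1 0 hz₀) (strip_subset_half b (-1) 0 hz₀)
          (strip_subset_half b 1 j hw) (strip_subset_half b (-1) j hw) (φ f) = φ (G j f) := by
  obtain ⟨Y, top, p, h, sp, sm, hsp, hsm, hup, hum, htr⟩ :=
    exists_cov_strip b hb (fun j => (G j)⁻¹) S hS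
  have hz1 := strip_subset_half b 1 0 hz₀
  have hz2 := strip_subset_half b (-1) 0 hz₀
  let φ₀ : F → p ⁻¹' {z₀} := fun f => ⟨sp f z₀, (hsp f).sec z₀ hz1⟩
  have hφ : Function.Bijective φ₀ := by
    constructor
    · intro f f' hff
      obtain ⟨f'', -, hu⟩ := hup z₀ hz1 (sp f z₀) ((hsp f).sec z₀ hz1)
      rw [hu f rfl, hu f' (congrArg Subtype.val hff).symm]
    · rintro ⟨y, hy⟩
      obtain ⟨f, hf, -⟩ := hup z₀ hz1 y hy
      exact ⟨f, Subtype.ext hf⟩
  refine ⟨Y, top, p, h, Equiv.ofBijective φ₀ hφ, fun B hp hB1 hB2 j w hw f => ?_⟩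
  have hw1 := strip_subset_half b 1 j hw
  have hw2 := strip_subset_half b (-1) j hw
  apply Subtype.ext
  rw [g_apply]
  have e1 : (tr hp (good_half b 1 (by norm_num)) hB1 hz1 hw1
      (Equiv.ofBijective φ₀ hφ f)).1 = sp f w :=
    tr_of_isSec hp _ _ (hsp f).cont (hsp f).sec hz1 hw1 _ rfl
  have e2 : sp f w = sm (G j f) w := by
    rw [htr j w hw (G j f)]
    simp
  rw [tr_of_isSec hp _ _ (hsm (G j f)).cont (hsm (G j f)).sec hw2 hz2 _ (e1.trans e2),
    htr 0 z₀ hz₀, hG]
  simp only [inv_one, Equiv.Perm.coe_one, id_eq]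
  rfl

/-- The finset of branch points. -/
noncomputable def brS : Finset ℂ := Finset.univ.image b

lemma brS_compl : ((brS b : Set ℂ))ᶜ = Pl b := by
  ext z
  simp [brS, Pl, eq_comm]

variable {b} (hb : StrictMono fun i => (b i).re)

/-- Every monodromy occurs for an algebraic covering. -/
theorem exists_alg_mon [Finite F] (x : Fin n → Equiv.Perm F) (A : Type u) [CommRing A]
    [Algebra ℂ[X] A] [Algebra ℂ A] [IsScalarTower ℂ ℂ[X] A] [IsLocalization.Away (PS (brS b)) A] :
    ∃ (B : Type u) (_ : CommRing B) (_ : Algebra A B) (_ : Algebra ℂ[X] B) (_ : Algebra ℂ B)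
      (_ : IsScalarTower ℂ[X] A B) (_ : IsScalarTower ℂ A B) (_ : IsScalarTower ℂ ℂ[X] B)
      (_ : Module.Finite A B) (_ : Algebra.Etale A B)
      (φ : F ≃ coord B ⁻¹' {Groth.Agent.Pi1.H147.Mono.pt hb 0}),
      ∀ (hp : IsCoveringMapOn (coord B) (Pl b)) (i : Fin n) (f : F),
        mon hb hp i (φ f) = φ (x i f) := by
  classical
  -- partial products
  let P : ℕ → Equiv.Perm F := fun k =>
    (List.ofFn fun i : Fin k => if h : (i : ℕ) < n then x ⟨i, h⟩ else 1).prod
  have hP0 : P 0 = 1 := by simp [P]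
  have hPs : ∀ (k : ℕ) (hk : k < n), P (k + 1) = P k * x ⟨k, hk⟩ := by
    intro k hk
    simp only [P]
    rw [List.ofFn_succ', List.concat_eq_append, List.prod_append]
    simp [hk]
  let Gx : Fin (n + 1) → Equiv.Perm F := fun j => P j
  obtain ⟨Y, top, p, h, φ, hφ⟩ := exists_cov_g' b hb Gx hP0 (brS b : Set ℂ) (brS_compl b)
    (Groth.Agent.Pi1.H147.Mono.pt hb 0) (pt_mem hb 0)
  obtain ⟨B, _, _, _, _, h1, h2, h3, ψ, hfin, het, hψ⟩ := RetPts.exists_alg h A
  have hψ' : ∀ y : Pts B, p (ψ.symm y) = coord B y := by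
    intro y
    rw [← hψ, Homeomorph.apply_symm_apply]
  let φB : F ≃ coord B ⁻¹' {Groth.Agent.Pi1.H147.Mono.pt hb 0} :=
    { toFun := fun f => ⟨ψ (φ f).1, by
        have h4 : p (φ f).1 = Groth.Agent.Pi1.H147.Mono.pt hb 0 := (φ f).2
        rw [mem_preimage, hψ, h4, mem_singleton_iff]⟩
      invFun := fun y => φ.symm ⟨ψ.symm y.1, by
        have h4 : coord B y.1 = Groth.Agent.Pi1.H147.Mono.pt hb 0 := y.2
        rw [mem_preimage, hψ', h4, mem_singleton_iff]⟩
      left_inv := fun f => by simp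
      right_inv := fun y => by
        apply Subtype.ext
        simp }
  refine ⟨B, inferInstance, inferInstance, inferInstance, inferInstance, h1, h2, h3, hfin, het, φB,
    fun hp i f => ?_⟩
  have hcov : IsCoveringMapOn p (Pl b) := by
    rw [← brS_compl b]
    exact h.cov
  have hG : ∀ (j : Fin (n + 1)) (f : F), G hb hcov j (φ f) = φ (Gx j f) := fun j f =>
    hφ _ hcov (half_subset_pl b 1) (half_subset_pl b (-1)) j _ (pt_mem hb j) f
  have hmon : mon hb hcov i (φ f) = φ (x i f) := by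
    have e1 : Gx i.succ = Gx i.castSucc * x i := hPs i i.2
    have e2 : G hb hcov i.castSucc (φ (x i f)) = φ (Gx i.succ f) := by
      rw [hG, e1]
      rfl
    change (G hb hcov i.castSucc)⁻¹ (G hb hcov i.succ (φ f)) = _
    rw [hG, ← e2]
    exact (G hb hcov i.castSucc).symm_apply_apply _
  have hnat := fmap_mon hb hcov hp ψ ψ.continuous.continuousOn (fun e _ => hψ e) i (φ f)
  rw [hmon] at hnat
  exact hnat.symm

end Groth.Agent.Pi1.H412.RetMono
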